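import Cfsg.Agent.S4913
import Cfsg.Agent.S4483

/-!
# S4857/S4858 (TEAM B0-RAT): the row p = 2 (helper852)

Every finite group of even order has a nontrivial rational-valued irreducible character of odd degree (S4913, by the
classification), and real-valued irreducible characters of odd degree lie in the principal 2-block (S4483).
-/

set_option autoImplicit false

namespace Cfsg.Agent.H852.RatB

open Cfsg

universe u

/-- the row `p = 2`, with the degree -/
theorem two_odd {G : Type u} [Group G] [Finite G] (h : Even (Nat.card G)) (M : Ideal AlgInt) (hM : IsPModular 2 M) :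
    ∃ χ : IrrCharacter G, χ ∈ principalBlock M G ∧ ¬ ((χ : G → ℂ) = fun _ => (1 : ℂ)) ∧
      Odd (charDegree (χ : G → ℂ)) ∧ ∀ g : G, ∃ q : ℚ, (χ : G → ℂ) g = (q : ℂ) := by
  obtain ⟨χ, h1, h2, h3⟩ := S4913.result h
  refine ⟨χ, (S4483.result M hM).1 χ (fun g => ?_) h2, h1, h2, h3⟩
  obtain ⟨q, hq⟩ := h3 g
  rw [hq]
  exact Complex.ratCast_im q

/-- **the row `p = 2` of S4857**, for every finite group of even order -/
theorem two {G : Type u} [Group G] [Finite G] (h : 2 ∣ Nat.card G) (M : Ideal AlgInt) (hM : IsPModular 2 M) :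
    ∃ χ : IrrCharacter G, χ ∈ principalBlock M G ∧ ¬ ((χ : G → ℂ) = fun _ => (1 : ℂ)) ∧
      ∀ g : G, ∃ q : ℚ, (χ : G → ℂ) g = (q : ℂ) := by
  obtain ⟨χ, h0, h1, _, h3⟩ := two_odd (even_iff_two_dvd.2 h) M hM
  exact ⟨χ, h0, h1, h3⟩

/-- the same, in the form of S4857 with `p = 2` substituted -/
theorem row_two {G : Type u} [Group G] [Finite G] (p : ℕ) (hp2 : p = 2) (hp : p ∣ Nat.card G)
    (M : Ideal AlgInt) (hM : IsPModular p M) :
    (p ≠ 3 → ∃ χ : IrrCharacter G, χ ∈ principalBlock M G ∧ ¬ ((χ : G → ℂ) = fun _ => (1 : ℂ)) ∧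
      (∀ g : G, ∃ q : ℚ, (χ : G → ℂ) g = (q : ℂ))) ∧
    (p = 3 → ∃ χ : IrrCharacter G, χ ∈ principalBlock M G ∧ ¬ ((χ : G → ℂ) = fun _ => (1 : ℂ)) ∧
      (∀ g : G, ((χ : G → ℂ) g).im = 0) ∧
      (∃ n : ℕ, ¬ p ∣ n ∧ ∀ g : G, (χ : G → ℂ) g ∈ IntermediateField.adjoin ℚ
        ({Complex.exp (2 * Real.pi * Complex.I / n)} : Set ℂ))) := by
  subst hp2
  exact ⟨fun _ => two hp M hM, fun h => absurd h (by norm_num)⟩

end Cfsg.Agent.H852.RatB
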